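import Cfsg.Agent.H956.OZ.PlusOrd

/-!
# The `r`-part of `|POmega⁺_{4k} (q)|`, `r` of order `2k` (helper956)
-/

set_option autoImplicit false

namespace Cfsg.Agent.H956.OZ

open Cfsg

theorem fac_plus_even {F : Type} [Field F] [Fintype F] {p f k r : ℕ} (hp : p.Prime) (hcard : Fintype.card F = p ^ f)
    (hk : 3 ≤ k) (hr : Cfsg.Agent.H530.OZ.Prim p (2 * k * f) r) :
    (Nat.card (POmega F (quadFormPlus (2 * k) F))).factorization r ≤ 2 * ((p ^ f) ^ k + 1).factorization r := by
  set a := ((p ^ f) ^ k + 1).factorization r with ha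
  have h1 : ¬ r ^ (a + 1) ∣ Fintype.card F ^ (2 * k / 2) + 1 := by
    rw [hcard, Nat.mul_div_cancel_left k (by norm_num), hr.prime.pow_dvd_iff_le_factorization (by omega), ← ha]
    omega
  have h2 := PlusOrd.card_plus hp hcard (n := 2 * k) (by omega) (even_two_mul k) hr h1
  by_contra h3
  apply h2
  rcases eq_or_ne (Nat.card (POmega F (quadFormPlus (2 * k) F))) 0 with h0 | h0
  · rw [h0]
    exact dvd_zero _
  · rw [hr.prime.pow_dvd_iff_le_factorization h0]
    omega

end Cfsg.Agent.H956.OZ
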