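import Cfsg.Agent.H956.OZ.Alt
import Cfsg.Agent.S0253
import Cfsg.Agent.S0254

/-!
# S4842, the row of the alternating groups (helper956)
-/

set_option autoImplicit false

namespace Cfsg.Agent.H956.OZ

open Finset Cfsg Cfsg.Agent.H614 Equiv Equiv.Perm Cfsg.Agent.Characters.Core
open Cfsg.Agent.H730.OZ (OneZero Concl Row)

universe u

/-- `OneZero` transports along isomorphisms -/
theorem oneZero_congr {S T : Type*} [Group S] [Group T] (e : S ≃* T) {χ : S → ℂ} (h : OneZero χ) :
    OneZero (χ ∘ (e.symm : T → S)) := by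
  obtain ⟨x, hx0, hx⟩ := h
  refine ⟨e x, by simpa using hx0, fun y hy => ?_⟩
  obtain ⟨c, hc⟩ := isConj_iff.1 (hx (e.symm y) hy)
  refine isConj_iff.2 ⟨e c, ?_⟩
  rw [← map_inv, ← map_mul, ← map_mul, hc, e.apply_symm_apply]

/-- The two exceptional alternating groups are groups `PSL₂(q)`, `q ≥ 5`. -/
theorem alt_cases {S : Type u} [Group S] (h : IsAlternating S) :
    (∃ n, 7 ≤ n ∧ Nonempty (S ≃* alternatingGroup (Fin n))) ∨
      ∃ (F : Type) (_ : Field F) (_ : Fintype F), (Fintype.card F = 5 ∨ Fintype.card F = 9) ∧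
        Nonempty (S ≃* Matrix.ProjectiveSpecialLinearGroup (Fin 2) F) := by
  obtain ⟨n, hn, ⟨e⟩⟩ := h
  rcases Nat.lt_or_ge n 7 with h7 | h7
  · right
    have h56 : n = 5 ∨ n = 6 := by omega
    rcases h56 with rfl | rfl
    · have h5 : Fact (Nat.Prime 5) := ⟨by norm_num⟩
      obtain ⟨e'⟩ := S0253.result (F := ZMod 5) (by rw [ZMod.card])
      exact ⟨ZMod 5, inferInstance, inferInstance, Or.inl (by rw [ZMod.card]), ⟨e.trans e'.symm⟩⟩
    · have : Fact (Nat.Prime 3) := ⟨by norm_num⟩
      have : Fintype (GaloisField 3 2) := Fintype.ofFinite _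
      have hF : Fintype.card (GaloisField 3 2) = 9 := by
        rw [← Nat.card_eq_fintype_card, GaloisField.card 3 2 (by norm_num)]
        norm_num
      obtain ⟨e'⟩ := S0254.result hF
      exact ⟨GaloisField 3 2, inferInstance, inferInstance, Or.inr hF, ⟨e.trans e'.symm⟩⟩
  · exact Or.inl ⟨n, h7, ⟨e⟩⟩

/-- **Alternating groups, degree at least seven**: no irreducible character vanishes on exactly one class. -/
theorem not_oneZero_of_iso {S : Type u} [Group S] {n : ℕ} (h7 : 7 ≤ n) (e : S ≃* alternatingGroup (Fin n)) {χ : S → ℂ}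
    (hχ : IsIrrCharacter S χ) : ¬ OneZero χ := fun h =>
  not_oneZero h7 (isIrr_comp (e.symm : alternatingGroup (Fin n) →* S) e.symm.surjective hχ) (oneZero_congr e h)

/-- **The row of the alternating groups** (degrees 5 and 6 are `PSL₂(5)` and `PSL₂(9)`). -/
theorem row_alt {S : Type u} [Group S] [Finite S] (h : IsAlternating S)
    (h2 : (∃ (F : Type) (_ : Field F) (_ : Fintype F), (Fintype.card F = 5 ∨ Fintype.card F = 9) ∧
        Nonempty (S ≃* Matrix.ProjectiveSpecialLinearGroup (Fin 2) F)) → Row S) : Row S := by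
  rcases alt_cases h with ⟨n, h7, ⟨e⟩⟩ | h
  · exact fun χ hχ h1 => absurd h1 (not_oneZero_of_iso h7 e hχ)
  · exact h2 h

end Cfsg.Agent.H956.OZ
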