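import Cfsg.Agent.H956.OZ.Comb4
import Cfsg.Agent.H620.PNAlt
import Cfsg.Agent.H730.OZ.Defs
import Cfsg.Agent.CharDeep.PowerDegrees

/-!
# S4842, alternating groups of degree at least seven (helper956)

No irreducible character vanishes on exactly one class.
-/

set_option autoImplicit false

namespace Cfsg.Agent.H956.OZ

open Finset Cfsg Cfsg.Agent.H614 Equiv Equiv.Perm Cfsg.Agent.Characters.Core
open Cfsg.Agent.H730.OZ (OneZero Concl Row)

/-- zeros of a constituent at a class which does not split -/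
theorem zero_nonsplit {G : Type*} [Group G] [Fintype G] (N : Subgroup G) [N.Normal] [Fintype N] {χ : G → ℂ}
    (hχ : IsIrrCharacter G χ) {θ : N → ℂ} (hθ : IsIrrCharacter N θ)
    (hne : classInner (fun n : N => χ n) θ ≠ 0) (g : N) (h0 : χ g = 0)
    (hcl : ∀ x : G, ∃ c : N, (c : G) * g * (c : G)⁻¹ = x * g * x⁻¹) : θ g = 0 := by
  obtain ⟨S, hS, hconj, heq⟩ := Blocks.PrimeNormal.restrict_eq N hχ hθ hne
  have h1 := congrFun heq g
  simp only [Pi.smul_apply, Finset.sum_apply] at h1
  rw [h0] at h1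
  have h2 : ∀ η ∈ S, (η : N → ℂ) g = θ g := by
    intro η hη
    obtain ⟨x, hx⟩ := hconj η hη
    rw [hx]
    obtain ⟨c, hc⟩ := hcl x
    have h3 : MulAut.conjNormal x g = c * g * c⁻¹ := by
      apply Subtype.ext
      rw [MulAut.conjNormal_apply]
      exact hc.symm
    show θ (MulAut.conjNormal x g) = θ g
    rw [h3]
    exact isIrr_isClassFunction hθ g c
  rw [Finset.sum_congr rfl h2, Finset.sum_const, smul_eq_mul, nsmul_eq_mul] at h1
  have h3 : (S.card : ℂ) ≠ 0 := by exact_mod_cast hS.ne'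
  rcases mul_eq_zero.1 h1.symm with h4 | h4
  · exact absurd h4 hne
  · rcases mul_eq_zero.1 h4 with h5 | h5
    · exact absurd h5 h3
    · exact h5

section

variable {n : ℕ}

theorem exists_odd_swap (hn : 2 ≤ n) : ∃ τ : Perm (Fin n), sign τ = -1 := by
  refine ⟨swap ⟨0, by omega⟩ ⟨1, by omega⟩, sign_swap ?_⟩
  intro h
  have := congrArg Fin.val h
  simp at this

/-- classes commuting with an odd permutation do not split -/
theorem conj_of_ns {g : alternatingGroup (Fin n)} {c : Multiset ℕ} (hg : (g : Perm (Fin n)).cycleType = c)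
    (hns : NS n c) (x : Perm (Fin n)) :
    ∃ k : alternatingGroup (Fin n), (k : Perm (Fin n)) * g * (k : Perm (Fin n))⁻¹ = x * g * x⁻¹ := by
  by_cases hx : x ∈ alternatingGroup (Fin n)
  · exact ⟨⟨x, hx⟩, rfl⟩
  have h1 : ¬ Subgroup.centralizer {(g : Perm (Fin n))} ≤ alternatingGroup (Fin n) := by
    rw [centralizer_le_alternating_iff, hg, Fintype.card_fin]
    rintro ⟨h1, h2, -⟩
    rcases hns with h | ⟨a, ha, hae⟩
    · omega
    · exact absurd (h1 a ha) (Nat.not_odd_iff_even.2 hae)
  obtain ⟨s, hs, hs'⟩ := SetLike.not_le_iff_exists.1 h1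
  have h2 : x * s ∈ alternatingGroup (Fin n) := by
    rw [mem_alternatingGroup] at hx hs' ⊢
    rw [map_mul, (Int.units_eq_one_or _).resolve_left hx, (Int.units_eq_one_or _).resolve_left hs']
    decide
  refine ⟨⟨x * s, h2⟩, ?_⟩
  show x * s * g * (x * s)⁻¹ = x * g * x⁻¹
  rw [Subgroup.mem_centralizer_singleton_iff] at hs
  calc x * s * g * (x * s)⁻¹ = x * (s * g) * s⁻¹ * x⁻¹ := by group
    _ = x * (g * s) * s⁻¹ * x⁻¹ := by rw [hs]
    _ = x * g * x⁻¹ := by group

/-- the class of an `r`-cycle, `r ≥ n - 1` odd, splits -/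
theorem split_not_conj {g : alternatingGroup (Fin n)} {r : ℕ} (hg : (g : Perm (Fin n)).cycleType = {r})
    (hr : n ≤ r + 1) (ho : Odd r) {τ : Perm (Fin n)} (hτ : sign τ = -1) (hy : τ * g * τ⁻¹ ∈ alternatingGroup (Fin n)) :
    ¬ IsConj g ⟨τ * g * τ⁻¹, hy⟩ := by
  intro hc
  obtain ⟨c, hc⟩ := isConj_iff.1 hc
  have h1 : (c : Perm (Fin n)) * g * (c : Perm (Fin n))⁻¹ = τ * g * τ⁻¹ := congrArg Subtype.val hc
  have h2 : τ⁻¹ * (c : Perm (Fin n)) ∈ Subgroup.centralizer ({(g : Perm (Fin n))} : Set (Perm (Fin n))) := by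
    rw [Subgroup.mem_centralizer_singleton_iff]
    calc τ⁻¹ * (c : Perm (Fin n)) * g = τ⁻¹ * ((c : Perm (Fin n)) * g * (c : Perm (Fin n))⁻¹) * c := by group
      _ = τ⁻¹ * (τ * g * τ⁻¹) * c := by rw [h1]
      _ = g * (τ⁻¹ * (c : Perm (Fin n))) := by group
  have h3 : Subgroup.centralizer {(g : Perm (Fin n))} ≤ alternatingGroup (Fin n) := by
    rw [centralizer_le_alternating_iff, hg, Fintype.card_fin]
    refine ⟨?_, by simpa using hr, ?_⟩
    · intro a ha
      rw [Multiset.mem_singleton.1 ha]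
      exact ho
    · intro i
      rw [Multiset.count_singleton]
      split_ifs <;> omega
  have h4 := h3 h2
  rw [mem_alternatingGroup, map_mul, map_inv, hτ, mem_alternatingGroup.1 c.2] at h4
  exact absurd h4 (by decide)

theorem card_le_fin : Fintype.card (Fin n) ≤ n := by rw [Fintype.card_fin]

/-- **The alternating groups of degree at least seven**: no irreducible character vanishes on exactly one class. -/
theorem not_oneZero (h7 : 7 ≤ n) {θ : alternatingGroup (Fin n) → ℂ}
    (hθ : IsIrrCharacter (alternatingGroup (Fin n)) θ) : ¬ OneZero θ := by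
  classical
  have : Nontrivial (Fin n) := Fin.nontrivial_iff_two_le.2 (by omega)
  have hidx : (alternatingGroup (Fin n)).index = 2 := alternatingGroup.index_eq_two
  obtain ⟨ψ, hψ, hne⟩ := CharDeep.PowerDegrees.exists_irr_over (alternatingGroup (Fin n)) hθ
  obtain ⟨β, hβ, hs, rfl⟩ := irr_eq (m := n) card_le_fin hψ
  rw [Fintype.card_fin] at hs
  set B := univ.image β with hB
  have hinj := hβ.injective
  have hgood : Good n B := good h7 (card_image hinj hB.symm) (by rw [sum_image hinj hB.symm, hs, sum_fin_range])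
  have hval : ∀ (g : Perm (Fin n)) (c : Multiset ℕ), g.cycleType = c →
      ch (Fin n) β g = (FM (c + Multiset.replicate (n - c.sum) 1) β : ℂ) := by
    intro g c hg
    rw [ch_apply, ty_eq, hg, Fintype.card_fin]
  have hZ : ∀ c : Multiset ℕ, ZT n B c → ∃ g : alternatingGroup (Fin n), (g : Perm (Fin n)).cycleType = c ∧
      ch (Fin n) β g = 0 := by
    rintro c ⟨h2, hle, he, hv⟩
    obtain ⟨g, hg, -⟩ := H620.PNAlt.exists_type c hle h2 he
    refine ⟨g, hg, ?_⟩
    rw [hval _ _ hg, hv β hinj hB.symm, Int.cast_zero]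
  have hdich := restrict_two (alternatingGroup (Fin n)) hidx hψ hθ hne
  rintro ⟨x, hx0, hx⟩
  have hcon : ∀ g g' : alternatingGroup (Fin n), θ g = 0 → θ g' = 0 →
      (g : Perm (Fin n)).cycleType = (g' : Perm (Fin n)).cycleType := by
    intro g g' hg hg'
    obtain ⟨c, hc⟩ := isConj_iff.1 ((hx g hg).symm.trans (hx g' hg'))
    have h1 : IsConj (g : Perm (Fin n)) (g' : Perm (Fin n)) :=
      isConj_iff.2 ⟨(c : Perm (Fin n)), congrArg Subtype.val hc⟩
    exact isConj_iff_cycleType_eq.1 h1
  rcases hgood with ⟨c, c', hcc, hc, hc', hn, hn'⟩ | ⟨⟨o, ho2, hos, hoo, hoN⟩, hrest⟩ | hlin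
  · obtain ⟨g, hg, hg0⟩ := hZ c hc
    obtain ⟨g', hg', hg0'⟩ := hZ c' hc'
    have h1 := zero_nonsplit (alternatingGroup (Fin n)) hψ hθ hne g hg0 (conj_of_ns hg hn)
    have h2 := zero_nonsplit (alternatingGroup (Fin n)) hψ hθ hne g' hg0' (conj_of_ns hg' hn')
    have h3 := hcon g g' h1 h2
    rw [hg, hg'] at h3
    exact hcc h3
  · -- the restriction is irreducible
    have hC1 : ∀ g : alternatingGroup (Fin n), ch (Fin n) β g = θ g := by
      rcases hdich with h | ⟨-, h⟩
      · exact h
      · exfalso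
        obtain ⟨g, hg⟩ := (exists_with_cycleType_iff (α := Fin n) (m := o)).2 ⟨by rw [Fintype.card_fin]; exact hos, ho2⟩
        have h1 : g ∉ alternatingGroup (Fin n) := by
          rw [mem_alternatingGroup, sign_of_cycleType, hg, hoo.neg_one_pow]
          decide
        have h2 := h g h1
        rw [hval _ _ hg] at h2
        exact hoN β hinj hB.symm (by exact_mod_cast h2)
    rcases hrest with ⟨c, c', hcc, hc, hc'⟩ | ⟨r, hr, hr2, hrZ⟩
    · obtain ⟨g, hg, hg0⟩ := hZ c hc
      obtain ⟨g', hg', hg0'⟩ := hZ c' hc'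
      have h3 := hcon g g' (by rw [← hC1, hg0]) (by rw [← hC1, hg0'])
      rw [hg, hg'] at h3
      exact hcc h3
    · obtain ⟨g, hg, hg0⟩ := hZ _ hrZ
      obtain ⟨τ, hτ⟩ := exists_odd_swap (n := n) (by omega)
      have hro : Odd r := by
        have h1 := hrZ.2.2.1
        rw [Multiset.sum_singleton, Multiset.card_singleton, Nat.even_add_one, Nat.not_even_iff_odd] at h1
        exact h1
      have hy : τ * g * τ⁻¹ ∈ alternatingGroup (Fin n) := by
        rw [mem_alternatingGroup, map_mul, map_mul, map_inv, hτ, mem_alternatingGroup.1 g.2]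
        decide
      refine split_not_conj hg hr hro hτ hy ?_
      refine (hx g (by rw [← hC1, hg0])).symm.trans (hx _ ?_)
      rw [← hC1]
      show ch (Fin n) β (τ * g * τ⁻¹) = 0
      have h1 : (τ * (g : Perm (Fin n)) * τ⁻¹).cycleType = {r} := by rw [cycleType_conj, hg]
      rw [hval _ _ h1, ← hval _ _ hg, hg0]
  · -- linear characters
    have hnz : ∀ g : Perm (Fin n), ch (Fin n) β g ≠ 0 := by
      intro g h0
      rw [ch_apply] at h0
      have h1 : (ty g).sum = n := by
        rw [ty_eq, Multiset.sum_add, Multiset.sum_replicate, Fintype.card_fin, smul_eq_mul, mul_one]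
        have := g.sum_cycleType_le
        rw [Fintype.card_fin] at this
        omega
      have h2 : ∀ a ∈ ty g, 0 < a := by
        intro a ha
        rw [ty_eq, Multiset.mem_add] at ha
        rcases ha with ha | ha
        · exact (one_lt_of_mem_cycleType ha).le
        · rw [Multiset.eq_of_mem_replicate ha]; exact one_pos
      exact hlin (ty g) h1 h2 β hinj hB.symm (by exact_mod_cast h0)
    rcases hdich with h | ⟨-, h⟩
    · exact hnz _ ((h x).trans hx0)
    · obtain ⟨τ, hτ⟩ := exists_odd_swap (n := n) (by omega)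
      refine hnz τ (h τ ?_)
      rw [mem_alternatingGroup, hτ]
      decide

end

end Cfsg.Agent.H956.OZ
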