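import Cfsg.Agent.H614.Height

/-!
# S4842, alternating groups: combinatorics of beta-sets (helper956)

`Vz m s B` (`Nz m s B`) : Frobenius' function `FM s` vanishes (does not vanish) on the injective tuples of length `m`
with image `B`.
-/

set_option autoImplicit false

namespace Cfsg.Agent.H956.OZ

open Finset Cfsg.Agent.H614

/-- `FM s` vanishes on the tuples with image `B`. -/
def Vz (m : ℕ) (s : Multiset ℕ) (B : Finset ℕ) : Prop :=
  ∀ β : Fin m → ℕ, Function.Injective β → univ.image β = B → FM s β = 0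

/-- `FM s` does not vanish on the tuples with image `B`. -/
def Nz (m : ℕ) (s : Multiset ℕ) (B : Finset ℕ) : Prop :=
  ∀ β : Fin m → ℕ, Function.Injective β → univ.image β = B → FM s β ≠ 0

variable {m : ℕ}

theorem mem_im {β : Fin m → ℕ} {B : Finset ℕ} (h : univ.image β = B) (b : ℕ) : b ∈ B ↔ ∃ j, β j = b := by
  rw [← h]; simp

/-- no hook of length `r` -/
theorem vz_no {r : ℕ} (s : Multiset ℕ) {B : Finset ℕ} (hr : 0 < r) (h : ∀ b ∈ B, r ≤ b → b - r ∈ B) :
    Vz m (r ::ₘ s) B := by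
  intro β _ hB
  rw [FM_cons]
  refine Finset.sum_eq_zero fun j _ => ?_
  split_ifs with hj
  · refine FM_eq_zero_of_not_injective s ?_
    obtain ⟨k, hk⟩ := (mem_im hB _).1 (h _ ((mem_im hB _).2 ⟨j, rfl⟩) hj)
    intro hinj
    have hkj : k ≠ j := by rintro rfl; omega
    apply hkj
    apply hinj
    rw [dn_self, dn_ne _ _ hkj, hk]
  · rfl

/-- exactly one hook of length `r` -/
theorem step {r : ℕ} (s : Multiset ℕ) {B : Finset ℕ} {b : ℕ} (hb : b ∈ B) (hr : r ≤ b) (h0 : b - r ∉ B)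
    (hu : ∀ c ∈ B, c ≠ b → r ≤ c → c - r ∈ B) {β : Fin m → ℕ} (hβ : Function.Injective β)
    (hB : univ.image β = B) :
    ∃ γ : Fin m → ℕ, Function.Injective γ ∧ univ.image γ = insert (b - r) (B.erase b) ∧
      FM (r ::ₘ s) β = FM s γ := by
  obtain ⟨j, hj⟩ := (mem_im hB _).1 hb
  have hinj : Function.Injective (dn β j r) := by
    intro x y hxy
    by_cases hx : x = j
    · by_cases hy : y = j
      · rw [hx, hy]
      · rw [hx, dn_self, dn_ne _ _ hy, hj] at hxy
        exact absurd ((mem_im hB _).2 ⟨y, hxy.symm⟩) h0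
    · by_cases hy : y = j
      · rw [hy, dn_self, dn_ne _ _ hx, hj] at hxy
        exact absurd ((mem_im hB _).2 ⟨x, hxy⟩) h0
      · rw [dn_ne _ _ hx, dn_ne _ _ hy] at hxy
        exact hβ hxy
  refine ⟨dn β j r, hinj, ?_, ?_⟩
  · ext c
    simp only [mem_image, mem_univ, true_and, mem_insert, mem_erase]
    constructor
    · rintro ⟨k, rfl⟩
      by_cases hk : k = j
      · left; rw [hk, dn_self, hj]
      · right
        rw [dn_ne _ _ hk]
        exact ⟨fun h => hk (hβ (h.trans hj.symm)), (mem_im hB _).2 ⟨k, rfl⟩⟩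
    · rintro (rfl | ⟨h1, h2⟩)
      · exact ⟨j, by rw [dn_self, hj]⟩
      · obtain ⟨k, rfl⟩ := (mem_im hB _).1 h2
        exact ⟨k, dn_ne _ _ fun h => h1 (by rw [h, hj])⟩
  · rw [FM_cons, Finset.sum_eq_single j]
    · rw [hj, if_pos hr]
    · intro k _ hkj
      split_ifs with hk
      · refine FM_eq_zero_of_not_injective s ?_
        have hne : β k ≠ b := fun h => hkj (hβ (h.trans hj.symm))
        obtain ⟨l, hl⟩ := (mem_im hB _).1 (hu _ ((mem_im hB _).2 ⟨k, rfl⟩) hne hk)
        intro hi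
        by_cases hr0 : r = 0
        · subst hr0
          exact h0 (by rw [Nat.sub_zero]; exact hb)
        have hlk : l ≠ k := by rintro rfl; omega
        apply hlk
        apply hi
        rw [dn_self, dn_ne _ _ hlk, hl]
      · rfl
    · intro h
      exact absurd (mem_univ _) h

theorem vz_step {r : ℕ} {s : Multiset ℕ} {B : Finset ℕ} {b : ℕ} (hb : b ∈ B) (hr : r ≤ b) (h0 : b - r ∉ B)
    (hu : ∀ c ∈ B, c ≠ b → r ≤ c → c - r ∈ B) (h : Vz m s (insert (b - r) (B.erase b))) : Vz m (r ::ₘ s) B := by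
  intro β hβ hB
  obtain ⟨γ, h1, h2, h3⟩ := step s hb hr h0 hu hβ hB
  rw [h3]
  exact h γ h1 h2

theorem nz_step {r : ℕ} {s : Multiset ℕ} {B : Finset ℕ} {b : ℕ} (hb : b ∈ B) (hr : r ≤ b) (h0 : b - r ∉ B)
    (hu : ∀ c ∈ B, c ≠ b → r ≤ c → c - r ∈ B) (h : Nz m s (insert (b - r) (B.erase b))) : Nz m (r ::ₘ s) B := by
  intro β hβ hB
  obtain ⟨γ, h1, h2, h3⟩ := step s hb hr h0 hu hβ hB
  rw [h3]
  exact h γ h1 h2

theorem sum_image {β : Fin m → ℕ} (hβ : Function.Injective β) {B : Finset ℕ} (hB : univ.image β = B) :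
    ∑ b ∈ B, b = ∑ i, β i := by
  rw [← hB, Finset.sum_image fun x _ y _ h => hβ h]

theorem card_image {β : Fin m → ℕ} (hβ : Function.Injective β) {B : Finset ℕ} (hB : univ.image β = B) :
    B.card = m := by
  rw [← hB, Finset.card_image_of_injective _ hβ, card_univ, Fintype.card_fin]

theorem sum_fin_range (m : ℕ) : ∑ i : Fin m, (i : ℕ) = ∑ i ∈ range m, i := (Fin.sum_univ_eq_sum_range (fun i => i) m)

/-- only fixed points are left -/
theorem nz_ones {d : ℕ} {B : Finset ℕ} (hs : ∑ b ∈ B, b = d + ∑ i ∈ range m, i) : Nz m (Multiset.replicate d 1) B := by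
  intro β hβ hB
  refine FM_ones_ne_zero hβ ?_
  rw [← sum_image hβ hB, hs, sum_fin_range]

theorem nz_zero : Nz m 0 (range m) := by
  have h := nz_ones (m := m) (d := 0) (B := range m) (by rw [zero_add])
  exact h

/-- The smallest sum. -/
theorem range_le_sum {B : Finset ℕ} : ∑ i ∈ range B.card, i ≤ ∑ b ∈ B, b := by
  have h := sum_le_of_injective (β := fun i : Fin B.card => (B.orderEmbOfFin rfl i)) (B.orderEmbOfFin rfl).injective
  rw [sum_fin_range] at h
  refine h.trans (le_of_eq ?_)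
  symm
  refine sum_image (m := B.card) (B.orderEmbOfFin rfl).injective ?_
  ext b
  simp only [mem_image, mem_univ, true_and]
  have := B.range_orderEmbOfFin rfl
  have h2 : b ∈ (B : Set ℕ) ↔ b ∈ Set.range (B.orderEmbOfFin rfl) := by rw [this]
  rw [mem_coe] at h2
  rw [h2]
  rfl

theorem eq_range_of_sum {B : Finset ℕ} (h : ∑ b ∈ B, b = ∑ i ∈ range B.card, i) : B = range B.card := by
  by_contra hne
  -- some element is at least `card`
  have h1 : ¬ B ⊆ range B.card := fun hs => hne (eq_of_subset_of_card_le hs (by rw [card_range]))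
  obtain ⟨b, hb, hb'⟩ := not_subset.1 h1
  rw [mem_range, not_lt] at hb'
  have h2 := range_le_sum (B := B.erase b)
  rw [card_erase_of_mem hb] at h2
  have h3 : b + ∑ x ∈ B.erase b, x = ∑ x ∈ B, x := add_sum_erase B (fun x => x) hb
  have hpos : 0 < B.card := card_pos.2 ⟨b, hb⟩
  obtain ⟨k, hk⟩ : ∃ k, B.card = k + 1 := ⟨B.card - 1, by omega⟩
  rw [hk] at h h2 hb'
  rw [sum_range_succ] at h
  simp only [Nat.add_sub_cancel] at h2
  omega

/-- removing the largest element of a set with excess `d` -/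
theorem excess {n d : ℕ} {B : Finset ℕ} (hc : B.card = n + 1) (hs : ∑ b ∈ B, b = d + ∑ i ∈ range (n + 1), i) :
    ∃ k ≤ d, n + k ∈ B ∧ (∀ b ∈ B.erase (n + k), b < n + k) ∧ (B.erase (n + k)).card = n ∧
      ∑ b ∈ B.erase (n + k), b = d - k + ∑ i ∈ range n, i := by
  have hne : B.Nonempty := card_pos.1 (by omega)
  set X := B.max' hne with hX
  have hXB : X ∈ B := B.max'_mem hne
  have hmax : ∀ b ∈ B, b ≤ X := fun b hb => B.le_max' b hb
  have h1 : n ≤ X := by
    have h2 : B ⊆ range (X + 1) := fun b hb => mem_range.2 (Nat.lt_succ_of_le (hmax b hb))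
    have h3 := card_le_card h2
    rw [card_range, hc] at h3
    omega
  have hce : (B.erase X).card = n := by rw [card_erase_of_mem hXB, hc, Nat.add_sub_cancel]
  have h2 := range_le_sum (B := B.erase X)
  rw [hce] at h2
  have h3 : X + ∑ x ∈ B.erase X, x = ∑ x ∈ B, x := add_sum_erase B (fun x => x) hXB
  rw [hs, sum_range_succ] at h3
  obtain ⟨k, hk⟩ : ∃ k, X = n + k := ⟨X - n, by omega⟩
  rw [hk] at h3 h2 hXB hce hmax
  refine ⟨k, by omega, hXB, ?_, hce, by omega⟩
  intro b hb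
  rw [mem_erase] at hb
  exact lt_of_le_of_ne (hmax b hb.2) hb.1

end Cfsg.Agent.H956.OZ
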