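import Cfsg.Agent.H956.OZ.Comb

/-!
# S4842, alternating groups: the longest hook and the inner partition (helper956)
-/

set_option autoImplicit false

namespace Cfsg.Agent.H956.OZ

open Finset Cfsg.Agent.H614

/-- `x` is the largest element, `y` the smallest gap of the beta-set `B` of a partition of `n` with `n` entries;
`B'` is the beta-set of the partition of `d` without the first row and column. -/
structure MH (n : ℕ) (B B' : Finset ℕ) (x y d : ℕ) : Prop where
  hx : x ∈ B
  hy : y ∉ B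
  lt : y < x
  low : ∀ k < y, k ∈ B
  max : ∀ b ∈ B, b ≤ x
  len : x + d = n + y
  dle : d < n
  card' : B'.card = n
  sum' : ∑ b ∈ B', b = d + ∑ i ∈ range n, i
  mem : ∀ b, b ∈ B ↔ b = x ∨ (b ∈ B' ∧ b ≠ y)
  mem' : ∀ b, b ∈ B' ↔ b = y ∨ (b ∈ B ∧ b ≠ x)

theorem exists_MH {n : ℕ} (hn : 0 < n) {B : Finset ℕ} (hc : B.card = n)
    (hs : ∑ b ∈ B, b = n + ∑ i ∈ range n, i) : ∃ B' x y d, MH n B B' x y d := by
  have hne : B.Nonempty := card_pos.1 (by omega)
  have hgap : ∃ k, k ∉ B := by
    by_contra h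
    push Not at h
    exact absurd (h (B.max' hne + 1)) (fun h2 => by have := B.le_max' _ h2; omega)
  classical
  set y := Nat.find hgap with hy
  have hyB : y ∉ B := Nat.find_spec hgap
  have hlow : ∀ k < y, k ∈ B := fun k hk => by
    have := Nat.find_min hgap hk
    exact not_not.1 this
  set x := B.max' hne with hx
  have hxB : x ∈ B := B.max'_mem hne
  have hmax : ∀ b ∈ B, b ≤ x := fun b hb => B.le_max' b hb
  have hxy : y < x := by
    by_contra h
    have h1 : ∀ b ∈ B, b < y := by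
      intro b hb
      have := hmax b hb
      have h2 : b ≠ y := fun h3 => hyB (h3 ▸ hb)
      omega
    have h2 : B = range y := by
      ext b
      rw [mem_range]
      exact ⟨h1 b, hlow b⟩
    rw [h2, card_range] at hc
    rw [h2, hc] at hs
    omega
  have hyE : y ∉ B.erase x := fun h => hyB (mem_of_mem_erase h)
  have hc' : (insert y (B.erase x)).card = n := by
    rw [card_insert_of_notMem hyE, card_erase_of_mem hxB, hc]
    omega
  have h3 : x + ∑ b ∈ B.erase x, b = ∑ b ∈ B, b := add_sum_erase B (fun x => x) hxB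
  have h4 : ∑ b ∈ insert y (B.erase x), b = y + ∑ b ∈ B.erase x, b := sum_insert hyE
  have h5 := range_le_sum (B := insert y (B.erase x))
  rw [hc'] at h5
  have hmem : ∀ b, b ∈ B ↔ b = x ∨ (b ∈ insert y (B.erase x) ∧ b ≠ y) := by
    intro b
    rw [mem_insert, mem_erase]
    constructor
    · intro hb
      by_cases h : b = x
      · exact Or.inl h
      · exact Or.inr ⟨Or.inr ⟨h, hb⟩, fun h' => hyB (h' ▸ hb)⟩
    · rintro (rfl | ⟨h1 | h1, h2⟩)
      · exact hxB
      · exact absurd h1 h2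
      · exact h1.2
  refine ⟨insert y (B.erase x), x, y, n + y - x, hxB, hyB, hxy, hlow, hmax, by omega, by omega, hc', by omega, hmem, ?_⟩
  intro b
  rw [mem_insert, mem_erase, and_comm]

namespace MH

variable {n : ℕ} {B B' : Finset ℕ} {x y d : ℕ}

theorem no_hook (H : MH n B B' x y d) {r : ℕ} (hr : n < r + d) : ∀ b ∈ B, r ≤ b → b - r ∈ B := by
  intro b hb hrb
  apply H.low
  have := H.max b hb
  have := H.len
  omega

theorem vz (H : MH n B B' x y d) {r : ℕ} (hr : n < r + d) (s : Multiset ℕ) : Vz n (r ::ₘ s) B :=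
  vz_no s (by have := H.dle; omega) (H.no_hook hr)

theorem step_eq (H : MH n B B' x y d) : insert (x - (n - d)) (B.erase x) = B' := by
  have h1 : x - (n - d) = y := by
    have := H.len
    have := H.dle
    omega
  ext b
  rw [H.mem', h1, mem_insert, mem_erase, and_comm]

theorem nz (H : MH n B B' x y d) {s : Multiset ℕ} (h : Nz n s B') : Nz n ((n - d) ::ₘ s) B := by
  have hl := H.len
  have hd := H.dle
  refine nz_step H.hx (by omega) ?_ ?_ ?_
  · rw [show x - (n - d) = y by omega]
    exact H.hy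
  · intro c hc hcx hr
    apply H.low
    have := H.max c hc
    omega
  · rw [H.step_eq]
    exact h

theorem nz_ones (H : MH n B B' x y d) : Nz n ((n - d) ::ₘ Multiset.replicate d 1) B :=
  H.nz (OZ.nz_ones H.sum')

end MH

/-! ### inner partitions of size at most three -/

theorem eq_range_of_lt {n : ℕ} {B : Finset ℕ} (hc : B.card = n) (h : ∀ b ∈ B, b < n) : B = range n :=
  eq_of_subset_of_card_le (fun b hb => mem_range.2 (h b hb)) (by rw [card_range, hc])

theorem inner0 {n : ℕ} {B : Finset ℕ} (hc : B.card = n) (hs : ∑ b ∈ B, b = 0 + ∑ i ∈ range n, i) (b : ℕ) :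
    b ∈ B ↔ b < n := by
  have h := eq_range_of_sum (B := B) (by rw [hs, hc, zero_add])
  rw [h, hc, mem_range]

theorem inner1 {n : ℕ} {B : Finset ℕ} (hc : B.card = n + 1) (hs : ∑ b ∈ B, b = 1 + ∑ i ∈ range (n + 1), i) (b : ℕ) :
    b ∈ B ↔ b = n + 1 ∨ b < n := by
  obtain ⟨k, hk, hkB, hlt, hc', hs'⟩ := excess hc hs
  have hb : b ∈ B ↔ b = n + k ∨ b ∈ B.erase (n + k) := by
    rw [mem_erase]
    constructor
    · intro h
      by_cases h1 : b = n + k
      · exact Or.inl h1
      · exact Or.inr ⟨h1, h⟩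
    · rintro (h | h)
      · rw [h]; exact hkB
      · exact h.2
  rcases Nat.eq_zero_or_pos k with h0 | h1
  · subst h0
    have h2 := eq_range_of_lt hc' (by intro b hb; have := hlt b hb; omega)
    rw [h2] at hs'
    omega
  · obtain rfl : k = 1 := by omega
    have h2 := inner0 hc' (by rw [hs'])
    rw [hb, h2]

theorem inner2 {n : ℕ} {B : Finset ℕ} (hc : B.card = n + 2) (hs : ∑ b ∈ B, b = 2 + ∑ i ∈ range (n + 2), i) :
    (∀ b, b ∈ B ↔ b = n + 3 ∨ b < n + 1) ∨ (∀ b, b ∈ B ↔ b = n + 2 ∨ b = n + 1 ∨ b < n) := by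
  obtain ⟨k, hk, hkB, hlt, hc', hs'⟩ := excess (n := n + 1) hc hs
  have hb : ∀ b, b ∈ B ↔ b = n + 1 + k ∨ b ∈ B.erase (n + 1 + k) := by
    intro b
    rw [mem_erase]
    constructor
    · intro h
      by_cases h1 : b = n + 1 + k
      · exact Or.inl h1
      · exact Or.inr ⟨h1, h⟩
    · rintro (h | h)
      · rw [h]; exact hkB
      · exact h.2
  obtain h0 | h0 | h0 : k = 0 ∨ k = 1 ∨ k = 2 := by omega
  · subst h0
    have h2 := eq_range_of_lt hc' (by intro b hb; have := hlt b hb; omega)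
    rw [h2] at hs'
    omega
  · subst h0
    right
    intro b
    rw [hb, inner1 hc' (by rw [hs'])]
  · subst h0
    left
    intro b
    rw [hb, inner0 hc' (by rw [hs'])]

theorem inner3 {n : ℕ} {B : Finset ℕ} (hc : B.card = n + 3) (hs : ∑ b ∈ B, b = 3 + ∑ i ∈ range (n + 3), i) :
    (∀ b, b ∈ B ↔ b = n + 5 ∨ b < n + 2) ∨ (∀ b, b ∈ B ↔ b = n + 4 ∨ b = n + 2 ∨ b < n + 1) ∨
      (∀ b, b ∈ B ↔ b = n + 3 ∨ b = n + 2 ∨ b = n + 1 ∨ b < n) := by
  obtain ⟨k, hk, hkB, hlt, hc', hs'⟩ := excess (n := n + 2) hc hs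
  have hb : ∀ b, b ∈ B ↔ b = n + 2 + k ∨ b ∈ B.erase (n + 2 + k) := by
    intro b
    rw [mem_erase]
    constructor
    · intro h
      by_cases h1 : b = n + 2 + k
      · exact Or.inl h1
      · exact Or.inr ⟨h1, h⟩
    · rintro (h | h)
      · rw [h]; exact hkB
      · exact h.2
  obtain h0 | h0 | h0 | h0 : k = 0 ∨ k = 1 ∨ k = 2 ∨ k = 3 := by omega
  · subst h0
    have h2 := eq_range_of_lt hc' (by intro b hb; have := hlt b hb; omega)
    rw [h2] at hs'
    omega
  · subst h0
    rcases inner2 (n := n) hc' (by rw [hs']) with h | h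
    · exact absurd (hlt _ ((h (n + 3)).2 (Or.inl rfl))) (by omega)
    · right; right
      intro b
      rw [hb, h]
  · subst h0
    right; left
    intro b
    rw [hb, inner1 (n := n + 1) hc' (by rw [hs'])]
  · subst h0
    left
    intro b
    rw [hb, inner0 hc' (by rw [hs'])]

end Cfsg.Agent.H956.OZ
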