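import Cfsg.Agent.H956.OZ.Comb2

/-!
# S4842, alternating groups: zeros of every beta-set (helper956)

`good_odd`, `good_even` : for `n ≥ 7` every beta-set `B` of a partition of `n` is `Good`.
-/

set_option autoImplicit false

namespace Cfsg.Agent.H956.OZ

open Finset Cfsg.Agent.H614

/-- an odd permutation with nonzero value -/
def OddNZ (n : ℕ) (B : Finset ℕ) : Prop :=
  ∃ c : Multiset ℕ, (∀ a ∈ c, 2 ≤ a) ∧ c.sum ≤ n ∧ Odd (c.sum + Multiset.card c) ∧
    Nz n (c + Multiset.replicate (n - c.sum) 1) B

/-- an even cycle type of zeros -/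
def ZT (n : ℕ) (B : Finset ℕ) (c : Multiset ℕ) : Prop :=
  (∀ a ∈ c, 2 ≤ a) ∧ c.sum ≤ n ∧ Even (c.sum + Multiset.card c) ∧ Vz n (c + Multiset.replicate (n - c.sum) 1) B

/-- the class does not split in the alternating group -/
def NS (n : ℕ) (c : Multiset ℕ) : Prop := c.sum + 1 < n ∨ ∃ a ∈ c, Even a

/-- What is proved for every beta-set. -/
def Good (n : ℕ) (B : Finset ℕ) : Prop :=
  (∃ c c', c ≠ c' ∧ ZT n B c ∧ ZT n B c' ∧ NS n c ∧ NS n c') ∨
  (OddNZ n B ∧ ((∃ c c', c ≠ c' ∧ ZT n B c ∧ ZT n B c') ∨
    (∃ r, n ≤ r + 1 ∧ 2 ≤ r ∧ ZT n B {r}))) ∨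
  (∀ s : Multiset ℕ, s.sum = n → (∀ a ∈ s, 0 < a) → Nz n s B)

variable {n : ℕ} {B B' : Finset ℕ} {x y d : ℕ}

theorem zt1 {r : ℕ} (h2 : 2 ≤ r) (hn : r ≤ n) (ho : Odd r) (hv : Vz n (r ::ₘ Multiset.replicate (n - r) 1) B) :
    ZT n B {r} := by
  refine ⟨fun a ha => by rw [Multiset.mem_singleton.1 ha]; exact h2, by simpa using hn, ?_, ?_⟩
  · rw [Multiset.sum_singleton, Multiset.card_singleton]
    exact ho.add_one
  · rw [Multiset.sum_singleton, Multiset.singleton_add]
    exact hv

theorem zt2 {r t : ℕ} (h2 : 2 ≤ r) (ht : 2 ≤ t) (hn : r + t ≤ n) (he : Even (r + t))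
    (hv : Vz n (r ::ₘ t ::ₘ Multiset.replicate (n - (r + t)) 1) B) : ZT n B (r ::ₘ {t}) := by
  refine ⟨?_, by simpa using hn, ?_, ?_⟩
  · intro a ha
    rw [Multiset.mem_cons, Multiset.mem_singleton] at ha
    rcases ha with rfl | rfl
    · exact h2
    · exact ht
  · rw [Multiset.sum_cons, Multiset.sum_singleton, Multiset.card_cons, Multiset.card_singleton]
    obtain ⟨k, hk⟩ := he
    exact ⟨k + 1, by omega⟩
  · rw [Multiset.sum_cons, Multiset.sum_singleton, Multiset.cons_add, Multiset.singleton_add]
    exact hv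

theorem oddNZ1 {r : ℕ} (h2 : 2 ≤ r) (hn : r ≤ n) (he : Even r) (hv : Nz n (r ::ₘ Multiset.replicate (n - r) 1) B) :
    OddNZ n B := by
  refine ⟨{r}, fun a ha => by rw [Multiset.mem_singleton.1 ha]; exact h2, by simpa using hn, ?_, ?_⟩
  · rw [Multiset.sum_singleton, Multiset.card_singleton]
    exact he.add_one
  · rw [Multiset.sum_singleton, Multiset.singleton_add]
    exact hv

theorem oddNZ2 {r t : ℕ} (h2 : 2 ≤ r) (ht : 2 ≤ t) (hn : r + t ≤ n) (ho : Odd (r + t))
    (hv : Nz n (r ::ₘ t ::ₘ Multiset.replicate (n - (r + t)) 1) B) : OddNZ n B := by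
  refine ⟨r ::ₘ {t}, ?_, by simpa using hn, ?_, ?_⟩
  · intro a ha
    rw [Multiset.mem_cons, Multiset.mem_singleton] at ha
    rcases ha with rfl | rfl
    · exact h2
    · exact ht
  · rw [Multiset.sum_cons, Multiset.sum_singleton, Multiset.card_cons, Multiset.card_singleton]
    obtain ⟨k, hk⟩ := ho
    exact ⟨k + 1, by omega⟩
  · rw [Multiset.sum_cons, Multiset.sum_singleton, Multiset.cons_add, Multiset.singleton_add]
    exact hv

theorem ne_types {r t u : ℕ} : ({r} : Multiset ℕ) ≠ t ::ₘ {u} := by
  intro h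
  have := congrArg Multiset.card h
  simp at this

theorem oddNZ_of_even (H : MH n B B' x y d) (he : Even (n - d)) : OddNZ n B := by
  have hd := H.dle
  obtain ⟨k, hk⟩ := he
  refine oddNZ1 (r := n - d) (by omega) (by omega) ⟨k, hk⟩ ?_
  rw [show n - (n - d) = d by omega]
  exact H.nz_ones

/-! ### the trivial character and the sign character -/

theorem lin_top {a : ℕ} : ∀ (s : Multiset ℕ) (B : Finset ℕ), (∀ b, b ∈ B ↔ b = n + a ∨ b < n) → s.sum = a →
    (∀ c ∈ s, 0 < c) → Nz (n + 1) s B := by
  intro s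
  induction s using Multiset.induction generalizing a with
  | empty =>
    intro B hB hs _
    rw [Multiset.sum_zero] at hs
    subst hs
    have : B = range (n + 1) := by
      ext b
      rw [hB, mem_range]
      omega
    rw [this]
    exact nz_zero
  | cons r s ih =>
    intro B hB hs hpos
    rw [Multiset.sum_cons] at hs
    have hr := hpos r (Multiset.mem_cons_self _ _)
    refine nz_step (b := n + a) ((hB _).2 (Or.inl rfl)) (by omega) (fun h => by rw [hB] at h; omega)
      (fun c hc hne hr => by rw [hB] at hc ⊢; omega) ?_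
    refine ih (a := a - r) _ ?_ (by omega) (fun c hc => hpos c (Multiset.mem_cons_of_mem hc))
    intro b
    rw [mem_insert, mem_erase, hB]
    omega

theorem lin_bot {a m : ℕ} : ∀ (s : Multiset ℕ) (B : Finset ℕ), a ≤ m → (∀ b, b ∈ B ↔ b ≤ m ∧ b ≠ m - a) → s.sum = a →
    (∀ c ∈ s, 0 < c) → Nz m s B := by
  intro s
  induction s using Multiset.induction generalizing a with
  | empty =>
    intro B _ hB hs _
    rw [Multiset.sum_zero] at hs
    subst hs
    have : B = range m := by
      ext b
      rw [hB, mem_range]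
      omega
    rw [this]
    exact nz_zero
  | cons r s ih =>
    intro B ham hB hs hpos
    rw [Multiset.sum_cons] at hs
    have hr := hpos r (Multiset.mem_cons_self _ _)
    refine nz_step (b := m - a + r) ((hB _).2 (by omega)) (by omega) (fun h => by rw [hB] at h; omega)
      (fun c hc hne hr => by rw [hB] at hc ⊢; omega) ?_
    refine ih (a := a - r) _ (by omega) ?_ (by omega) (fun c hc => hpos c (Multiset.mem_cons_of_mem hc))
    intro b
    rw [mem_insert, mem_erase, hB]
    omega

/-! ### hooks -/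

section hook

variable (H : MH n B B' x y 0)

include H

theorem hook_mem (b : ℕ) : b ∈ B ↔ b = n + y ∨ (b < n ∧ b ≠ y) := by
  have h1 := inner0 H.card' H.sum' b
  have h2 := H.len
  rw [H.mem, h1, show x = n + y by omega]

theorem hook_lt : y < n := by
  by_contra h
  have h1 := (hook_mem H y).1
  have h2 := H.mem' y
  have h3 := inner0 H.card' H.sum' y
  have h4 : y ∈ B' := h2.2 (Or.inl rfl)
  rw [h3] at h4
  omega

theorem hook_lin (hy : y = 0 ∨ y + 1 = n) : Good n B := by
  right; right
  intro s hs hpos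
  rcases hy with hy | hy
  · refine lin_bot (a := n) s B le_rfl ?_ hs hpos
    intro b
    have h1 := hook_mem H b
    rw [h1, Nat.sub_self]
    constructor
    · rintro (h | h)
      · constructor
        · omega
        · have := H.dle
          omega
      · constructor
        · omega
        · have := h.2
          omega
    · rintro ⟨h2, h3⟩
      by_cases h4 : b = n
      · left; omega
      · right; constructor
        · omega
        · omega
  · obtain ⟨k, rfl⟩ : ∃ k, n = k + 1 := ⟨n - 1, by omega⟩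
    refine lin_top (n := k) (a := k + 1) s B ?_ hs hpos
    intro b
    have h1 := hook_mem H b
    rw [h1]
    omega

theorem hook_even (h7 : 7 ≤ n) (he : Even n) : Good n B := by
  have hlt := hook_lt H
  by_cases hy : y = 0 ∨ y + 1 = n
  · exact hook_lin H hy
  right; left
  refine ⟨oddNZ_of_even H (by simpa using he), Or.inr ⟨n - 1, by omega, by omega, ?_⟩⟩
  refine zt1 (by omega) (by omega) ?_ (vz_no _ (by omega) ?_)
  · obtain ⟨k, hk⟩ := he
    exact ⟨k - 1, by omega⟩
  · intro b hb hr
    rw [hook_mem H] at hb ⊢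
    omega

theorem hook_odd (h7 : 7 ≤ n) (ho : Odd n) : Good n B := by
  have hlt := hook_lt H
  have hm := hook_mem H
  obtain ⟨k, hk⟩ := ho
  by_cases hy : y = 0 ∨ y + 1 = n
  · exact hook_lin H hy
  -- type `(n - 2, 1, 1)`
  have z1 : y ≠ 1 → y + 2 ≠ n → ZT n B {n - 2} := by
    intro h1 h2
    refine zt1 (by omega) (by omega) ⟨k - 1, by omega⟩ (vz_no _ (by omega) ?_)
    intro b hb hr
    rw [hm] at hb ⊢
    omega
  -- type `(n - 3, 2, 1)`
  have z2 : y ≠ 2 → y + 3 ≠ n → ZT n B ((n - 3) ::ₘ {2}) := by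
    intro h1 h2
    refine zt2 (by omega) (by omega) (by omega) ⟨k, by omega⟩ ?_
    by_cases h3 : y = 1 ∨ y + 2 = n
    · -- one step
      rcases h3 with h3 | h3
      · refine vz_step (b := n - 2) ((hm _).2 (by omega)) (by omega) (fun h => by rw [hm] at h; omega)
          (fun c hc hne hr => by rw [hm] at hc ⊢; omega) (vz_no _ (by omega) ?_)
        intro b hb hr
        rw [mem_insert, mem_erase, hm] at hb ⊢
        omega
      · refine vz_step (b := n + y) ((hm _).2 (by omega)) (by omega) (fun h => by rw [hm] at h; omega)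
          (fun c hc hne hr => by rw [hm] at hc ⊢; omega) (vz_no _ (by omega) ?_)
        intro b hb hr
        rw [mem_insert, mem_erase, hm] at hb ⊢
        omega
    · refine vz_no _ (by omega) ?_
      intro b hb hr
      rw [hm] at hb ⊢
      omega
  by_cases hmid : y ≠ 1 ∧ y ≠ 2 ∧ y + 2 ≠ n ∧ y + 3 ≠ n
  · left
    refine ⟨_, _, ne_types, z1 hmid.1 hmid.2.2.1, z2 hmid.2.1 hmid.2.2.2, Or.inl ?_, Or.inr ⟨2, by simp, by decide⟩⟩
    rw [Multiset.sum_singleton]; omega
  -- type `(n - 4, 3, 1)`
  have z3 : ZT n B ((n - 4) ::ₘ {3}) := by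
    refine zt2 (by omega) (by omega) (by omega) ⟨k, by omega⟩ ?_
    obtain h | h | h | h : y = 1 ∨ y = 2 ∨ y + 2 = n ∨ y + 3 = n := by omega
    · refine vz_step (b := n - 3) ((hm _).2 (by omega)) (by omega) (fun h => by rw [hm] at h; omega)
        (fun c hc hne hr => by rw [hm] at hc ⊢; omega) (vz_no _ (by omega) ?_)
      intro b hb hr
      rw [mem_insert, mem_erase, hm] at hb ⊢
      omega
    · refine vz_step (b := n - 2) ((hm _).2 (by omega)) (by omega) (fun h => by rw [hm] at h; omega)
        (fun c hc hne hr => by rw [hm] at hc ⊢; omega) (vz_no _ (by omega) ?_)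
      intro b hb hr
      rw [mem_insert, mem_erase, hm] at hb ⊢
      omega
    · refine vz_step (b := n + y) ((hm _).2 (by omega)) (by omega) (fun h => by rw [hm] at h; omega)
        (fun c hc hne hr => by rw [hm] at hc ⊢; omega) (vz_no _ (by omega) ?_)
      intro b hb hr
      rw [mem_insert, mem_erase, hm] at hb ⊢
      omega
    · refine vz_step (b := n + y) ((hm _).2 (by omega)) (by omega) (fun h => by rw [hm] at h; omega)
        (fun c hc hne hr => by rw [hm] at hc ⊢; omega) (vz_no _ (by omega) ?_)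
      intro b hb hr
      rw [mem_insert, mem_erase, hm] at hb ⊢
      omega
  -- the odd type `(n - 3, 3)`
  have o1 : OddNZ n B := by
    refine oddNZ2 (r := n - 3) (t := 3) (by omega) (by omega) (by omega) ⟨k, by omega⟩ ?_
    rw [show n - (n - 3 + 3) = 0 by omega, Multiset.replicate_zero]
    have fin : ∀ C : Finset ℕ, (∀ b, b ∈ C ↔ b < n) → Nz n 0 C := by
      intro C hC
      have : C = range n := by ext b; rw [hC, mem_range]
      rw [this]
      exact nz_zero
    obtain h | h | h | h : y = 1 ∨ y = 2 ∨ y + 2 = n ∨ y + 3 = n := by omega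
    · refine nz_step (b := n - 2) ((hm _).2 (by omega)) (by omega) (fun h => by rw [hm] at h; omega)
        (fun c hc hne hr => by rw [hm] at hc ⊢; omega) ?_
      refine nz_step (b := n + 1) (by rw [mem_insert, mem_erase, hm]; omega) (by omega)
        (fun h => by rw [mem_insert, mem_erase, hm] at h; omega)
        (fun c hc hne hr => by rw [mem_insert, mem_erase, hm] at hc ⊢; omega) (fin _ fun b => ?_)
      rw [mem_insert, mem_erase, mem_insert, mem_erase, hm]
      omega
    · refine nz_step (b := n - 1) ((hm _).2 (by omega)) (by omega) (fun h => by rw [hm] at h; omega)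
        (fun c hc hne hr => by rw [hm] at hc ⊢; omega) ?_
      refine nz_step (b := n + 2) (by rw [mem_insert, mem_erase, hm]; omega) (by omega)
        (fun h => by rw [mem_insert, mem_erase, hm] at h; omega)
        (fun c hc hne hr => by rw [mem_insert, mem_erase, hm] at hc ⊢; omega) (fin _ fun b => ?_)
      rw [mem_insert, mem_erase, mem_insert, mem_erase, hm]
      omega
    · refine nz_step (b := n + y) ((hm _).2 (by omega)) (by omega) (fun h => by rw [hm] at h; omega)
        (fun c hc hne hr => by rw [hm] at hc ⊢; omega) ?_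
      refine nz_step (b := n + 1) (by rw [mem_insert, mem_erase, hm]; omega) (by omega)
        (fun h => by rw [mem_insert, mem_erase, hm] at h; omega)
        (fun c hc hne hr => by rw [mem_insert, mem_erase, hm] at hc ⊢; omega) (fin _ fun b => ?_)
      rw [mem_insert, mem_erase, mem_insert, mem_erase, hm]
      omega
    · refine nz_step (b := n + y) ((hm _).2 (by omega)) (by omega) (fun h => by rw [hm] at h; omega)
        (fun c hc hne hr => by rw [hm] at hc ⊢; omega) ?_
      refine nz_step (b := n) (by rw [mem_insert, mem_erase, hm]; omega) (by omega)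
        (fun h => by rw [mem_insert, mem_erase, hm] at h; omega)
        (fun c hc hne hr => by rw [mem_insert, mem_erase, hm] at hc ⊢; omega) (fin _ fun b => ?_)
      rw [mem_insert, mem_erase, mem_insert, mem_erase, hm]
      omega
  right; left
  refine ⟨o1, Or.inl ?_⟩
  by_cases h : y = 1 ∨ y + 2 = n
  · refine ⟨_, _, ?_, z2 (by omega) (by omega), z3⟩
    intro hc
    have h2 : (2 : ℕ) ∈ (n - 4) ::ₘ ({3} : Multiset ℕ) := by rw [← hc]; simp
    rw [Multiset.mem_cons, Multiset.mem_singleton] at h2
    omega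
  · exact ⟨_, _, ne_types, z1 (by omega) (by omega), z3⟩

end hook

end Cfsg.Agent.H956.OZ
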