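import Cfsg.Agent.H956.OZ.Comb3

/-!
# S4842, alternating groups: every beta-set is good (helper956)
-/

set_option autoImplicit false

namespace Cfsg.Agent.H956.OZ

open Finset Cfsg.Agent.H614

variable {n : ℕ} {B B' : Finset ℕ} {x y d : ℕ}

/-- **`n` odd.** -/
theorem good_odd (h7 : 7 ≤ n) (ho : Odd n) (H : MH n B B' x y d) : Good n B := by
  have hd := H.dle
  rcases Nat.eq_zero_or_pos d with h0 | hpos
  · subst h0
    exact hook_odd H h7 ho
  have hsplit : ∃ r, n ≤ r + 1 ∧ 2 ≤ r ∧ ZT n B {r} :=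
    ⟨n, by omega, by omega, zt1 (by omega) le_rfl ho (H.vz (by omega) _)⟩
  by_cases he : Even (n - d)
  · exact Or.inr (Or.inl ⟨oddNZ_of_even H he, Or.inr hsplit⟩)
  obtain ⟨k, hk⟩ := ho
  by_cases h2 : d = 2
  · subst h2
    refine Or.inr (Or.inl ⟨?_, Or.inr hsplit⟩)
    refine oddNZ2 (r := n - 2) (t := 2) (by omega) le_rfl (by omega) ⟨k, by omega⟩ ?_
    rw [show n - (n - 2 + 2) = 0 by omega, Multiset.replicate_zero]
    refine H.nz ?_
    have hone : ∀ C : Finset ℕ, (∀ b, b ∈ C ↔ b < n) → Nz n 0 C := by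
      intro C hC
      have : C = range n := by ext b; rw [hC, mem_range]
      rw [this]
      exact nz_zero
    obtain ⟨l, rfl⟩ : ∃ l, n = l + 2 := ⟨n - 2, by omega⟩
    rcases inner2 H.card' H.sum' with h | h
    · refine nz_step (b := l + 3) ((h _).2 (by omega)) (by omega) (fun h' => by rw [h] at h'; omega)
        (fun c hc hne hr => by rw [h] at hc ⊢; omega) (hone _ fun b => ?_)
      rw [mem_insert, mem_erase, h]
      omega
    · refine nz_step (b := l + 2) ((h _).2 (by omega)) (by omega) (fun h' => by rw [h] at h'; omega)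
        (fun c hc hne hr => by rw [h] at hc ⊢; omega) (hone _ fun b => ?_)
      rw [mem_insert, mem_erase, h]
      omega
  have h4 : 4 ≤ d := by
    by_contra hlt
    obtain h | h : d = 1 ∨ d = 3 := by omega
    · exact he ⟨k, by omega⟩
    · exact he ⟨k - 1, by omega⟩
  left
  refine ⟨{n - 2}, (n - 3) ::ₘ {2}, ne_types, zt1 (by omega) (by omega) ⟨k - 1, by omega⟩ (H.vz (by omega) _),
    zt2 (by omega) (by omega) (by omega) ⟨k, by omega⟩ (H.vz (by omega) _), Or.inl ?_, Or.inr ⟨2, by simp, by decide⟩⟩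
  rw [Multiset.sum_singleton]; omega

/-! ### `n` even -/

/-- near hooks -/
theorem good_near (h7 : 7 ≤ n) (he : Even n) (H : MH n B B' x y 1) : Good n B := by
  obtain ⟨k, hk⟩ := he
  have hl := H.len
  have hm : ∀ b, b ∈ B ↔ b = n + y - 1 ∨ ((b = n ∨ b + 1 < n) ∧ b ≠ y) := by
    intro b
    obtain ⟨l, hl'⟩ : ∃ l, n = l + 1 := ⟨n - 1, by omega⟩
    subst hl'
    rw [H.mem, inner1 H.card' H.sum', show x = l + 1 + y - 1 by omega]
    omega
  have hy1 : y ∈ B' := (H.mem' y).2 (Or.inl rfl)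
  have hyn : y + 1 < n := by
    by_contra h
    have h1 : n - 1 ∉ B := by
      rw [hm]
      intro h2
      have h3 := H.lt
      rcases h2 with h2 | h2
      · have h4 : y = 0 := by omega
        omega
      · omega
    have h2 := H.low (n - 1)
    have h3 : ¬ (n - 1 < y) := fun h4 => h1 (h2 h4)
    have h4 : y = n - 1 := by omega
    obtain ⟨l, hl'⟩ : ∃ l, n = l + 1 := ⟨n - 1, by omega⟩
    subst hl'
    rw [inner1 H.card' H.sum'] at hy1
    omega
  have hy2 : 2 ≤ y := by
    have h1 : n ∈ B := by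
      rw [hm]
      omega
    have h2 := H.max n h1
    have h3 : x ≠ n := by
      intro h4
      obtain ⟨l, hl'⟩ : ∃ l, n = l + 1 := ⟨n - 1, by omega⟩
      subst hl'
      have h5 : l + 1 ∈ B' := (inner1 H.card' H.sum' _).2 (Or.inl rfl)
      rw [H.mem'] at h5
      omega
    omega
  -- types
  have z1 : y ≠ 2 → y + 2 ≠ n → ZT n B ((n - 2) ::ₘ {2}) := by
    intro h1 h2
    refine zt2 (by omega) le_rfl (by omega) ⟨k, by omega⟩ (vz_no _ (by omega) ?_)
    intro b hb hr
    rw [hm] at hb ⊢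
    omega
  have z2 : y ≠ 3 → y + 3 ≠ n → ZT n B {n - 3} := by
    intro h1 h2
    refine zt1 (by omega) (by omega) ⟨k - 2, by omega⟩ (vz_no _ (by omega) ?_)
    intro b hb hr
    rw [hm] at hb ⊢
    omega
  have ns1 : NS n ((n - 2) ::ₘ {2}) := Or.inr ⟨2, by simp, by decide⟩
  have ns2 : NS n {n - 3} := Or.inl (by rw [Multiset.sum_singleton]; omega)
  have ns3 : NS n ((n - 4) ::ₘ {4}) := Or.inr ⟨4, by simp, by decide⟩
  by_cases h3 : y = 3 ∨ y + 3 = n
  · left
    refine ⟨_, _, ?_, z1 (by omega) (by omega), ?_, ns1, ns3⟩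
    · intro hc
      have h2 : (2 : ℕ) ∈ (n - 4) ::ₘ ({4} : Multiset ℕ) := by rw [← hc]; simp
      rw [Multiset.mem_cons, Multiset.mem_singleton] at h2
      omega
    · refine zt2 (by omega) (by omega) (by omega) ⟨k, by omega⟩ (vz_no _ (by omega) ?_)
      intro b hb hr
      rw [hm] at hb ⊢
      omega
  by_cases h2 : y = 2 ∨ y + 2 = n
  · left
    refine ⟨_, _, ne_types, z2 (by omega) (by omega), ?_, ns2, ns3⟩
    refine zt2 (by omega) (by omega) (by omega) ⟨k, by omega⟩ ?_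
    rcases h2 with h2 | h2
    · refine vz_step (b := n - 2) ((hm _).2 (by omega)) (by omega) (fun h => by rw [hm] at h; omega)
        (fun c hc hne hr => by rw [hm] at hc ⊢; omega) (vz_no _ (by omega) ?_)
      intro b hb hr
      rw [mem_insert, mem_erase, hm] at hb ⊢
      omega
    · refine vz_step (b := n + y - 1) ((hm _).2 (by omega)) (by omega) (fun h => by rw [hm] at h; omega)
        (fun c hc hne hr => by rw [hm] at hc ⊢; omega) (vz_no _ (by omega) ?_)
      intro b hb hr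
      rw [mem_insert, mem_erase, hm] at hb ⊢
      omega
  · left
    exact ⟨_, _, ne_types, z2 (by omega) (by omega), z1 (by omega) (by omega), ns2, ns1⟩

/-- inner partition of size three -/
theorem good_three (h7 : 7 ≤ n) (he : Even n) (H : MH n B B' x y 3) : Good n B := by
  obtain ⟨k, hk⟩ := he
  have hl := H.len
  have hsplit : ∃ r, n ≤ r + 1 ∧ 2 ≤ r ∧ ZT n B {r} :=
    ⟨n - 1, by omega, by omega, zt1 (by omega) (by omega) ⟨k - 1, by omega⟩ (H.vz (by omega) _)⟩
  have o1 : Nz n (2 ::ₘ {1}) B' → OddNZ n B := by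
    intro h
    refine oddNZ2 (r := n - 3) (t := 2) (by omega) le_rfl (by omega) ⟨k - 1, by omega⟩ ?_
    rw [show n - (n - 3 + 2) = 1 by omega, Multiset.replicate_one]
    exact H.nz h
  have hone : ∀ C : Finset ℕ, (∑ b ∈ C, b = 1 + ∑ i ∈ range n, i) → Nz n {1} C := by
    intro C hC
    exact nz_ones (d := 1) hC
  have hsum : ∀ (C : Finset ℕ) (b : ℕ), b ∈ C → 2 ≤ b → b - 2 ∉ C → ∑ c ∈ C, c = 3 + ∑ i ∈ range n, i →
      ∑ c ∈ insert (b - 2) (C.erase b), c = 1 + ∑ i ∈ range n, i := by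
    intro C b hb h2 hb' hs
    rw [sum_insert fun h => hb' (mem_of_mem_erase h)]
    have := add_sum_erase C (fun c => c) hb
    have h3 : b + ∑ c ∈ C.erase b, c = ∑ c ∈ C, c := this
    omega
  obtain ⟨l, hl'⟩ : ∃ l, n = l + 3 := ⟨n - 3, by omega⟩
  subst hl'
  rcases inner3 H.card' H.sum' with h | h | h
  · refine Or.inr (Or.inl ⟨o1 ?_, Or.inr hsplit⟩)
    have hb : l + 5 ∈ B' := (h _).2 (by omega)
    have hb' : l + 5 - 2 ∉ B' := fun h' => by rw [h] at h'; omega
    exact nz_step (b := l + 5) hb (by omega) hb' (fun c hc hne hr => by rw [h] at hc ⊢; omega)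
      (hone _ (hsum _ _ hb (by omega) hb' H.sum'))
  swap
  · refine Or.inr (Or.inl ⟨o1 ?_, Or.inr hsplit⟩)
    have hb : l + 2 ∈ B' := (h _).2 (by omega)
    have hb' : l + 2 - 2 ∉ B' := fun h' => by rw [h] at h'; omega
    exact nz_step (b := l + 2) hb (by omega) hb' (fun c hc hne hr => by rw [h] at hc ⊢; omega)
      (hone _ (hsum _ _ hb (by omega) hb' H.sum'))
  -- the inner partition `(2, 1)`
  have hm : ∀ b, b ∈ B ↔ b = l + y ∨ ((b = l + 4 ∨ b = l + 2 ∨ b < l + 1) ∧ b ≠ y) := by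
    intro b
    rw [H.mem, h, show x = l + y by omega]
  have hyl : y < l + 1 := by
    by_contra h1
    have h2 : l + 1 ∉ B := by
      rw [hm]
      intro h2
      have h3 := H.lt
      omega
    have h3 : ¬ (l + 1 < y) := fun h4 => h2 (H.low _ h4)
    have h4 : y = l + 1 := by omega
    have h5 := (h y).1 ((H.mem' y).2 (Or.inl rfl))
    omega
  have hy5 : 5 ≤ y := by
    have h1 : l + 4 ∈ B' := (h _).2 (Or.inl rfl)
    rw [H.mem'] at h1
    rcases h1 with h1 | ⟨h1, h2⟩
    · omega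
    · have := H.max _ h1
      omega
  by_cases hmid : y ≠ 5 ∧ y ≠ l
  · -- two missing hook lengths
    left
    refine ⟨(l + 1) ::ₘ {2}, (l - 1) ::ₘ {4}, ?_, zt2 (by omega) le_rfl (by omega) ⟨k, by omega⟩ (H.vz (by omega) _),
      zt2 (by omega) (by omega) (by omega) ⟨k, by omega⟩ (vz_no _ (by omega) ?_), Or.inr ⟨2, by simp, by decide⟩,
      Or.inr ⟨4, by simp, by decide⟩⟩
    · intro hc
      have h2 : (2 : ℕ) ∈ (l - 1) ::ₘ ({4} : Multiset ℕ) := by rw [← hc]; simp
      rw [Multiset.mem_cons, Multiset.mem_singleton] at h2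
      omega
    · intro b hb hr
      rw [hm] at hb ⊢
      omega
  by_cases hboth : y = 5 ∧ l = 5
  · -- `n = 8`, the partition `(3, 3, 2)`
    obtain ⟨rfl, rfl⟩ := hboth
    left
    refine ⟨(5 + 1) ::ₘ {2}, 3 ::ₘ {3}, by decide, zt2 (by omega) le_rfl (by omega) ⟨k, by omega⟩ (H.vz (by omega) _),
      zt2 (by omega) (by omega) (by omega) ⟨3, by omega⟩ ?_, Or.inr ⟨2, by simp, by decide⟩, Or.inl (by simp)⟩
    refine vz_step (b := 9) ((hm _).2 (by omega)) (by omega) (fun h => by rw [hm] at h; omega)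
      (fun c hc hne hr => by rw [hm] at hc ⊢; omega) (vz_no _ (by omega) ?_)
    intro b hb hr
    rw [mem_insert, mem_erase, hm] at hb ⊢
    omega
  -- a unique hook of length `n - 4`
  refine Or.inr (Or.inl ⟨oddNZ1 (r := l - 1) (by omega) (by omega) ⟨k - 2, by omega⟩ ?_, Or.inr hsplit⟩)
  rw [show l + 3 - (l - 1) = 4 by omega]
  have hsum' : ∀ (b : ℕ), b ∈ B → l - 1 ≤ b → b - (l - 1) ∉ B →
      ∑ c ∈ insert (b - (l - 1)) (B.erase b), c = 4 + ∑ i ∈ range (l + 3), i := by
    intro b hb h2 hb'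
    rw [sum_insert fun h => hb' (mem_of_mem_erase h)]
    have h3 : b + ∑ c ∈ B.erase b, c = ∑ c ∈ B, c := add_sum_erase B (fun c => c) hb
    have h4 : x + ∑ c ∈ B.erase x, c = ∑ c ∈ B, c := add_sum_erase B (fun c => c) H.hx
    have h5 : B' = insert y (B.erase x) := by
      ext c
      rw [H.mem', mem_insert, mem_erase, and_comm]
    have h6 := H.sum'
    rw [h5, sum_insert fun h => H.hy (mem_of_mem_erase h)] at h6
    omega
  by_cases hy : y = 5
  · have hb : l + 4 ∈ B := (hm _).2 (by omega)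
    have hb' : l + 4 - (l - 1) ∉ B := fun h' => by rw [hm] at h'; omega
    exact nz_step hb (by omega) hb' (fun c hc hne hr => by rw [hm] at hc ⊢; omega) (nz_ones (hsum' _ hb (by omega) hb'))
  · have hb : l + y ∈ B := (hm _).2 (by omega)
    have hb' : l + y - (l - 1) ∉ B := fun h' => by rw [hm] at h'; omega
    exact nz_step hb (by omega) hb' (fun c hc hne hr => by rw [hm] at hc ⊢; omega) (nz_ones (hsum' _ hb (by omega) hb'))

/-- **`n` even.** -/
theorem good_even (h7 : 7 ≤ n) (he : Even n) (H : MH n B B' x y d) : Good n B := by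
  have hd := H.dle
  rcases Nat.eq_zero_or_pos d with h0 | hpos
  · subst h0
    exact hook_even H h7 he
  obtain ⟨k, hk⟩ := he
  by_cases hpar : Even (n - d)
  · refine Or.inr (Or.inl ⟨oddNZ_of_even H hpar, Or.inr ⟨n - 1, by omega, by omega, ?_⟩⟩)
    obtain ⟨j, hj⟩ := hpar
    exact zt1 (by omega) (by omega) ⟨k - 1, by omega⟩ (H.vz (by omega) _)
  by_cases h1 : d = 1
  · subst h1
    exact good_near h7 ⟨k, hk⟩ H
  by_cases h3 : d = 3
  · subst h3
    exact good_three h7 ⟨k, hk⟩ H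
  have h5 : 5 ≤ d := by
    by_contra hlt
    obtain h | h : d = 2 ∨ d = 4 := by omega
    · exact hpar ⟨k - 1, by omega⟩
    · exact hpar ⟨k - 2, by omega⟩
  left
  refine ⟨{n - 3}, (n - 2) ::ₘ {2}, ne_types, zt1 (by omega) (by omega) ⟨k - 2, by omega⟩ (H.vz (by omega) _),
    zt2 (by omega) (by omega) (by omega) ⟨k, by omega⟩ (H.vz (by omega) _), Or.inl ?_, Or.inr ⟨2, by simp, by decide⟩⟩
  rw [Multiset.sum_singleton]; omega

/-- **Every beta-set is good.** -/
theorem good {n : ℕ} (h7 : 7 ≤ n) {B : Finset ℕ} (hc : B.card = n) (hs : ∑ b ∈ B, b = n + ∑ i ∈ range n, i) :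
    Good n B := by
  obtain ⟨B', x, y, d, H⟩ := exists_MH (by omega) hc hs
  rcases Nat.even_or_odd n with h | h
  · exact good_even h7 h H
  · exact good_odd h7 h H

end Cfsg.Agent.H956.OZ
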