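import Cfsg.Agent.S0293
import Cfsg.Agent.H530.OZ.Arith

/-!
# The `r`-part of `|POmega⁺_{2n} (q)|`, `n` even, `r` of order `n` (helper956)
-/

set_option autoImplicit false

namespace Cfsg.Agent.H956.OZ.PlusOrd

open Cfsg Cfsg.Agent.H530.OZ

theorem fac_zero {r m : ℕ} (h : ¬ r ∣ m) : m.factorization r = 0 := Nat.factorization_eq_zero_of_not_dvd h

theorem fac_order {p f n r a : ℕ} (hp : p.Prime) (hf : 0 < f) (hn : 2 ≤ n) (heven : Even n) (h : Prim p (n * f) r)
    (ha : ¬ r ^ (a + 1) ∣ (p ^ f) ^ (n / 2) + 1) {N : ℕ} (hN : N ≠ 0)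
    (hcard : Nat.gcd 4 ((p ^ f) ^ n - 1) * N =
      (p ^ f) ^ (n * (n - 1)) * ((p ^ f) ^ n - 1) * ∏ i ∈ Finset.range (n - 1), ((p ^ f) ^ (2 * (i + 1)) - 1)) :
    N.factorization r ≤ 2 * a := by
  obtain ⟨k, hk⟩ := heven
  have hk2 : n / 2 = k := by omega
  rw [hk2] at ha
  have hp1 : 1 < p := hp.one_lt
  have hq1 : 1 < p ^ f := Nat.one_lt_pow hf.ne' hp1
  have hpos : ∀ j, 0 < j → (p ^ f) ^ j - 1 ≠ 0 := by
    intro j hj
    have : 1 < (p ^ f) ^ j := Nat.one_lt_pow hj.ne' hq1
    omega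
  have hd0 : Nat.gcd 4 ((p ^ f) ^ n - 1) ≠ 0 := (Nat.gcd_pos_of_pos_left _ (by norm_num)).ne'
  have hP0 : ∏ i ∈ Finset.range (n - 1), ((p ^ f) ^ (2 * (i + 1)) - 1) ≠ 0 := by
    rw [Finset.prod_ne_zero_iff]
    intro i hi
    exact hpos _ (by omega)
  have hqn0 : (p ^ f) ^ (n * (n - 1)) ≠ 0 := (pow_pos (by omega) _).ne'
  have e1 := congrArg (fun m => m.factorization r) hcard
  beta_reduce at e1
  rw [Nat.factorization_mul hd0 hN, Nat.factorization_mul (mul_ne_zero hqn0 (hpos n (by omega))) hP0,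
    Nat.factorization_mul hqn0 (hpos n (by omega)), Finsupp.add_apply, Finsupp.add_apply, Finsupp.add_apply] at e1
  have e2 : ((p ^ f) ^ (n * (n - 1))).factorization r = 0 := by
    refine fac_zero fun hd => h.nd (h.prime.dvd_of_dvd_pow (m := p) (n := f * (n * (n - 1))) ?_)
    rw [pow_mul]
    exact hd
  -- `q ^ n - 1`
  have hv : ((p ^ f) ^ n - 1).factorization r ≤ a := by
    have e3 : (p ^ f) ^ n - 1 = ((p ^ f) ^ k + 1) * ((p ^ f) ^ k - 1) := by
      rw [hk, ← two_mul, mul_comm 2, pow_mul]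
      have := Nat.sq_sub_sq ((p ^ f) ^ k) 1
      simpa using this
    have hk0 : 0 < k := by omega
    rw [e3, Nat.factorization_mul (by omega) (hpos k hk0), Finsupp.add_apply]
    have e4 : ((p ^ f) ^ k - 1).factorization r = 0 := by
      refine fac_zero fun hd => ?_
      rw [← pow_mul, h.iff] at hd
      have h1 := Nat.le_of_dvd (Nat.mul_pos hf hk0) hd
      have h2 : n * f = 2 * (f * k) := by rw [hk]; ring
      have h3 : 0 < f * k := Nat.mul_pos hf hk0
      omega
    rw [e4, add_zero]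
    by_contra hlt
    apply ha
    have h5 : a + 1 ≤ ((p ^ f) ^ k + 1).factorization r := by omega
    exact (h.prime.pow_dvd_iff_le_factorization (by omega)).2 h5
  -- the product
  have hprod : (∏ i ∈ Finset.range (n - 1), ((p ^ f) ^ (2 * (i + 1)) - 1)).factorization r ≤ a := by
    rw [Nat.factorization_prod (fun i hi => hpos _ (by omega)), Finsupp.finsetSum_apply,
      Finset.sum_eq_single_of_mem (k - 1)]
    · rw [show 2 * (k - 1 + 1) = n by omega]
      exact hv
    · rw [Finset.mem_range]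
      omega
    · intro i hi hik
      rw [Finset.mem_range] at hi
      refine fac_zero fun hd => hik ?_
      rw [← pow_mul, h.iff] at hd
      have h1 : n ∣ 2 * (i + 1) := by
        apply Nat.dvd_of_mul_dvd_mul_left hf
        rwa [mul_comm f n]
      obtain ⟨z, hz⟩ := h1
      have hz0 : z ≠ 0 := by rintro rfl; omega
      have hz2 : z < 2 := by
        by_contra hge
        have : n * 2 ≤ n * z := Nat.mul_le_mul_left _ (by omega)
        omega
      have hz1 : z = 1 := by omega
      subst hz1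
      omega
  omega

/-- **The `r`-part of the order.** -/
theorem card_plus {F : Type} [Field F] [Fintype F] {p f n r a : ℕ} (hp : p.Prime) (hcard : Fintype.card F = p ^ f)
    (hn : 4 ≤ n) (heven : Even n) (h : Prim p (n * f) r) (ha : ¬ r ^ (a + 1) ∣ Fintype.card F ^ (n / 2) + 1) :
    ¬ r ^ (2 * a + 1) ∣ Nat.card (POmega F (quadFormPlus n F)) := by
  intro hd
  have hf : 0 < f := by
    rcases Nat.eq_zero_or_pos f with rfl | hf
    · exfalso
      have h1 : 1 < Fintype.card F := Fintype.one_lt_card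
      rw [hcard, pow_zero] at h1
      omega
    · exact hf
  have hS0 := S0293.result hcard n (by omega)
  have h0 : Nat.card (POmega F (quadFormPlus n F)) ≠ 0 := by
    intro h0
    rw [h0, mul_zero] at hS0
    have hp1 : 1 < p := hp.one_lt
    have hq1 : 1 < p ^ f := Nat.one_lt_pow hf.ne' hp1
    have hpos : ∀ j, 0 < j → (p ^ f) ^ j - 1 ≠ 0 := by
      intro j hj
      have : 1 < (p ^ f) ^ j := Nat.one_lt_pow hj.ne' hq1
      omega
    have hP0 : ∏ i ∈ Finset.range (n - 1), ((p ^ f) ^ (2 * (i + 1)) - 1) ≠ 0 := by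
      rw [Finset.prod_ne_zero_iff]
      intro i hi
      exact hpos _ (by omega)
    exact (mul_ne_zero (mul_ne_zero (pow_pos (by omega) _).ne' (hpos n (by omega))) hP0) hS0.symm
  have h1 := fac_order hp hf (by omega) heven h (by rw [← hcard]; exact ha) h0 hS0
  have h2 := (h.prime.pow_dvd_iff_le_factorization h0).1 hd
  omega

end Cfsg.Agent.H956.OZ.PlusOrd
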